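import Cfsg.Agent.H36.PermRep
import Mathlib

/-!
# A projective module over a group algebra is free over a `p`-subgroup
-/

set_option autoImplicit false
set_option linter.unusedSectionVars false

namespace Cfsg.Agent.H31.TwoChar

open Module

variable {k : Type*} [Field k] {G : Type*} [Group G] [Finite G]

/-- The elements fixed by a subgroup acting on the left. -/
noncomputable def fixLeft (P : Subgroup G) : Submodule k (MonoidAlgebra k G) :=
  ⨅ u : P, LinearMap.ker (LinearMap.mulLeft k (MonoidAlgebra.single (u : G) (1 : k)) - LinearMap.id)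

theorem mem_fixLeft {P : Subgroup G} {w : MonoidAlgebra k G} :
    w ∈ fixLeft P ↔ ∀ u : P, MonoidAlgebra.single (u : G) 1 * w = w := by
  simp [fixLeft, Submodule.mem_iInf, sub_eq_zero]

open scoped Classical in
/-- The sum of the elements of a subgroup. -/
noncomputable def subgroupSum (k : Type*) [Field k] (P : Subgroup G) : MonoidAlgebra k G :=
  letI := Fintype.ofFinite P
  ∑ u : P, MonoidAlgebra.single (u : G) (1 : k)

theorem subgroupSum_mem (P : Subgroup G) (w : MonoidAlgebra k G) :
    subgroupSum k P * w ∈ fixLeft (k := k) P := by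
  classical
  let := Fintype.ofFinite P
  rw [mem_fixLeft]
  intro u
  rw [← mul_assoc]
  congr 1
  rw [subgroupSum, Finset.mul_sum]
  simp only [MonoidAlgebra.single_mul_single, one_mul]
  exact Fintype.sum_equiv (Equiv.mulLeft u) _ _ fun v => rfl

theorem fixLeft_eq_range (P : Subgroup G) :
    fixLeft (k := k) P = LinearMap.range (LinearMap.mulLeft k (subgroupSum k P)) := by
  classical
  refine le_antisymm (fun w hw => ?_) ?_
  · let := Fintype.ofFinite P
    let := Fintype.ofFinite G
    obtain ⟨S, hS, -⟩ := P.exists_isComplement_right (1 : G)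
    refine ⟨∑ s ∈ S.toFinite.toFinset, MonoidAlgebra.single s (w.coeff s), ?_⟩
    rw [LinearMap.mulLeft_apply]
    apply MonoidAlgebra.ext
    refine Finsupp.ext fun g => ?_
    set q := hS.equiv g with hq
    have hg : (q.1 : G) * (q.2 : G) = g := hS.equiv_fst_mul_equiv_snd g
    let u₀ : P := ⟨(q.1 : G), q.1.2⟩
    have hfix := congrArg (fun a => a.coeff g) (mem_fixLeft.1 hw u₀)
    simp only [MonoidAlgebra.coeff_single_mul_apply, one_mul] at hfix
    have hu₀ : (u₀ : G)⁻¹ * g = (q.2 : G) := by
      show (q.1 : G)⁻¹ * g = _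
      rw [← hg, inv_mul_cancel_left]
    rw [hu₀] at hfix
    rw [subgroupSum, Finset.sum_mul, MonoidAlgebra.coeff_sum, Finsupp.finsetSum_apply,
      Finset.sum_eq_single u₀]
    · rw [MonoidAlgebra.coeff_single_mul_apply, one_mul, hu₀,
        MonoidAlgebra.coeff_sum, Finsupp.finsetSum_apply, Finset.sum_eq_single (q.2 : G)]
      · simp [hfix]
      · intro s _ hs
        simp [MonoidAlgebra.coeff_single, hs]
      · intro h
        exact absurd ((Set.Finite.mem_toFinset _).2 q.2.2) h
    · intro u _ hu
      rw [MonoidAlgebra.coeff_single_mul_apply, one_mul, MonoidAlgebra.coeff_sum,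
        Finsupp.finsetSum_apply, Finset.sum_eq_zero]
      intro s hs
      rw [MonoidAlgebra.coeff_single, Finsupp.single_apply, if_neg]
      intro h
      refine hu ?_
      have hus : (u : G) * s = g := by rw [h, mul_inv_cancel_left]
      have := hS.1 (a₁ := (⟨u, u.2⟩, ⟨s, (Set.Finite.mem_toFinset _).1 hs⟩)) (a₂ := q)
        (by simpa using hus.trans hg.symm)
      exact Subtype.ext (congrArg (fun x => ((Prod.fst x : (P : Set G)) : G)) this)
    · exact fun h => absurd (Finset.mem_univ _) h
  · rintro _ ⟨w, rfl⟩
    exact subgroupSum_mem P w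

/-- The fixed space of a left submodule cut out by a right idempotent. -/
theorem card_mul_le {p : ℕ} [Fact p.Prime] [CharP k p] {P : Subgroup G} (hP : IsPGroup p P)
    (f : MonoidAlgebra k G) (hf : f * f = f) :
    Nat.card P * finrank k
        (fixLeft (k := k) P ⊓ LinearMap.range (LinearMap.mulRight k f) : Submodule k _) ≤
      finrank k (LinearMap.range (LinearMap.mulRight k f)) := by
  classical
  let := Fintype.ofFinite P
  let := Fintype.ofFinite G
  have : FiniteDimensional k (MonoidAlgebra k G) := Module.Finite.of_basis (MonoidAlgebra.basis G k)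
  set V := LinearMap.range (LinearMap.mulRight k f) with hV
  have hVf : ∀ v ∈ V, v * f = v := by
    rintro _ ⟨a, rfl⟩
    simp [mul_assoc, hf]
  obtain ⟨b⟩ : Nonempty (Basis (Fin (finrank k (fixLeft (k := k) P ⊓ V : Submodule k _))) k
      (fixLeft (k := k) P ⊓ V : Submodule k _)) := ⟨Module.finBasis _ _⟩
  have hex : ∀ i, ∃ v ∈ V, subgroupSum k P * v = (b i : MonoidAlgebra k G) := fun i => by
    have h := (b i).2.1
    replace h := (fixLeft_eq_range (k := k) P).le h
    obtain ⟨w, hw⟩ := h
    refine ⟨w * f, ⟨w, rfl⟩, ?_⟩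
    rw [← mul_assoc, show subgroupSum k P * w = (b i : MonoidAlgebra k G) from hw,
      hVf _ (b i).2.2]
  choose v hv hNv using hex
  let φ : (Fin (finrank k (fixLeft (k := k) P ⊓ V : Submodule k _)) → P → k) →ₗ[k]
      MonoidAlgebra k G :=
    { toFun := fun c => ∑ i, ∑ u : P, c i u • (MonoidAlgebra.single (u : G) (1 : k) * v i)
      map_add' := fun c d => by simp [add_smul, Finset.sum_add_distrib]
      map_smul' := fun r c => by simp [Finset.smul_sum, smul_smul] }
  have hφV : ∀ c, φ c ∈ V := fun c => by
    show (∑ i, ∑ u : P, c i u • (MonoidAlgebra.single (u : G) (1 : k) * v i)) ∈ V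
    refine V.sum_mem fun i _ => V.sum_mem fun u _ =>
      V.smul_mem _ (LinearMap.mem_range.2 ⟨MonoidAlgebra.single (u : G) (1 : k) * v i, ?_⟩)
    rw [LinearMap.mulRight_apply, mul_assoc, hVf _ (hv i)]
  let ρ : Representation k P (Fin (finrank k (fixLeft (k := k) P ⊓ V : Submodule k _)) → P → k) :=
    { toFun := fun x =>
        { toFun := fun c i u => c i (x⁻¹ * u)
          map_add' := fun c d => rfl
          map_smul' := fun r c => rfl }
      map_one' := by
        apply LinearMap.ext
        intro c
        funext i u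
        simp
      map_mul' := fun x y => by
        apply LinearMap.ext
        intro c
        funext i u
        simp [mul_assoc] }
  have hequiv : ∀ x c, φ (ρ x c) = MonoidAlgebra.single (x : G) 1 * φ c := by
    intro x c
    show (∑ i, ∑ u : P, c i (x⁻¹ * u) • (MonoidAlgebra.single (u : G) (1 : k) * v i)) =
      MonoidAlgebra.single (x : G) 1 * ∑ i, ∑ u : P, c i u • (MonoidAlgebra.single (u : G) (1 : k) * v i)
    rw [Finset.mul_sum]
    refine Finset.sum_congr rfl fun i _ => ?_
    rw [Finset.mul_sum]
    refine Fintype.sum_equiv (Equiv.mulLeft x⁻¹) _ _ fun u => ?_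
    rw [mul_smul_comm, ← mul_assoc, MonoidAlgebra.single_mul_single, one_mul]
    simp
  have hinj : Function.Injective φ := by
    rw [← LinearMap.ker_eq_bot, Submodule.eq_bot_iff]
    intro c hc
    by_contra hc0
    obtain ⟨w, hwker, hw0, hwfix⟩ := Cfsg.Agent.H36.exists_fixed_ne_zero_of_pGroup hP ρ
      (LinearMap.ker φ) (fun x d hd => by
        rw [LinearMap.mem_ker] at hd ⊢
        rw [hequiv, hd, mul_zero]) hc hc0
    have hconst : ∀ i u, w i u = w i 1 := fun i u => by
      have h := congrFun (congrFun (hwfix u⁻¹) i) 1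
      have h' : w i (u⁻¹⁻¹ * 1) = w i 1 := h
      simpa using h'
    have h0 : ∑ i, w i 1 • (b i : MonoidAlgebra k G) = 0 := by
      rw [← LinearMap.mem_ker.1 hwker]
      refine Finset.sum_congr rfl fun i _ => ?_
      rw [← hNv i, subgroupSum, Finset.sum_mul, Finset.smul_sum]
      exact Finset.sum_congr rfl fun u _ => by rw [hconst i u]
    have hli := b.linearIndependent.map' (Submodule.subtype _) (Submodule.ker_subtype _)
    refine hw0 (funext fun i => funext fun u => ?_)
    rw [hconst i u]
    exact Fintype.linearIndependent_iff.1 hli (fun i => w i 1) h0 i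
  have h := LinearMap.finrank_le_finrank_of_injective (f := φ.codRestrict V hφV)
    (fun a b h => hinj (congrArg Subtype.val h))
  simpa [Module.finrank_pi_fintype, mul_comm, Nat.card_eq_fintype_card] using h

/-- The dimension of `kG f` is a multiple of the order of every `p`-subgroup. -/
theorem card_dvd_finrank_range {p : ℕ} [Fact p.Prime] [CharP k p] {P : Subgroup G}
    (hP : IsPGroup p P) (f : MonoidAlgebra k G) (hf : f * f = f) :
    Nat.card P ∣ finrank k (LinearMap.range (LinearMap.mulRight k f)) := by
  classical
  let := Fintype.ofFinite G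
  have : FiniteDimensional k (MonoidAlgebra k G) := Module.Finite.of_basis (MonoidAlgebra.basis G k)
  have hf' : (1 - f) * (1 - f) = 1 - f := by
    rw [sub_mul, one_mul, mul_sub, mul_one, hf, sub_self, sub_zero]
  set V := LinearMap.range (LinearMap.mulRight k f) with hV
  set V' := LinearMap.range (LinearMap.mulRight k (1 - f)) with hV'
  have h1 : Nat.card P * finrank k (fixLeft (k := k) P ⊓ V : Submodule k _) ≤ finrank k V :=
    card_mul_le hP f hf
  have h2 : Nat.card P * finrank k (fixLeft (k := k) P ⊓ V' : Submodule k _) ≤ finrank k V' :=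
    card_mul_le hP (1 - f) hf'
  have hker : V' = LinearMap.ker (LinearMap.mulRight k f) := by
    refine le_antisymm ?_ fun a ha => ⟨a, ?_⟩
    · rintro _ ⟨a, rfl⟩
      simp [mul_assoc, sub_mul, hf]
    · have ha' : a * f = 0 := ha
      simp [mul_sub, ha']
  have hsum : finrank k V + finrank k V' = Nat.card G := by
    rw [hker, hV, LinearMap.finrank_range_add_finrank_ker,
      finrank_eq_card_basis (MonoidAlgebra.basis G k), Nat.card_eq_fintype_card]
  have hfix : finrank k (fixLeft (k := k) P) ≤
      finrank k (fixLeft (k := k) P ⊓ V : Submodule k _) +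
        finrank k (fixLeft (k := k) P ⊓ V' : Submodule k _) := by
    have hle : fixLeft (k := k) P ≤ (fixLeft (k := k) P ⊓ V) ⊔ (fixLeft (k := k) P ⊓ V') := by
      intro w hw
      refine Submodule.mem_sup.2 ⟨w * f, Submodule.mem_inf.2 ⟨?_, LinearMap.mem_range.2 ⟨w, rfl⟩⟩,
        w * (1 - f), Submodule.mem_inf.2 ⟨?_, LinearMap.mem_range.2 ⟨w, rfl⟩⟩, ?_⟩
      · exact mem_fixLeft.2 fun u => by rw [← mul_assoc, mem_fixLeft.1 hw u]
      · exact mem_fixLeft.2 fun u => by rw [← mul_assoc, mem_fixLeft.1 hw u]
      · rw [← mul_add, add_sub_cancel, mul_one]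
    exact (Submodule.finrank_mono hle).trans (Submodule.finrank_add_le_finrank_add_finrank _ _)
  -- the fixed space is at least as large as the index
  obtain ⟨S, hS, -⟩ := P.exists_isComplement_right (1 : G)
  let := Fintype.ofFinite P
  let := Fintype.ofFinite S
  have hidx : P.index ≤ finrank k (fixLeft (k := k) P) := by
    have hli : LinearIndependent k fun s : S =>
        (⟨subgroupSum k P * MonoidAlgebra.single (s : G) 1, subgroupSum_mem P _⟩ :
          fixLeft (k := k) P) := by
      refine LinearIndependent.of_comp (Submodule.subtype _) ?_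
      rw [Fintype.linearIndependent_iff]
      intro c hc s
      have h := congrArg (fun a : MonoidAlgebra k G => a.coeff (s : G)) hc
      simp only [Function.comp_apply, Submodule.subtype_apply, MonoidAlgebra.coeff_sum,
        Finsupp.finsetSum_apply, MonoidAlgebra.coeff_smul, Finsupp.smul_apply,
        MonoidAlgebra.coeff_zero, Finsupp.coe_zero, Pi.zero_apply] at h
      rw [Finset.sum_eq_single s] at h
      · rw [subgroupSum, Finset.sum_mul, MonoidAlgebra.coeff_sum, Finsupp.finsetSum_apply,
          Finset.sum_eq_single (1 : P)] at h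
        · simpa using h
        · intro u _ hu
          rw [MonoidAlgebra.single_mul_single, MonoidAlgebra.coeff_single, Finsupp.single_apply,
            if_neg]
          intro he
          exact hu (Subtype.ext (mul_eq_right.1 he))
        · simp
      · intro t _ ht
        rw [subgroupSum, Finset.sum_mul, MonoidAlgebra.coeff_sum, Finsupp.finsetSum_apply,
          Finset.sum_eq_zero]
        · simp
        intro u _
        rw [MonoidAlgebra.single_mul_single, MonoidAlgebra.coeff_single, Finsupp.single_apply,
          if_neg]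
        intro he
        have := hS.1 (a₁ := (⟨u, u.2⟩, ⟨t, t.2⟩)) (a₂ := (⟨1, P.one_mem⟩, ⟨s, s.2⟩))
          (by simpa using he)
        exact ht (Subtype.ext (congrArg (fun x => ((Prod.snd x : S) : G)) this))
      · simp
    have h := hli.fintype_card_le_finrank
    rwa [← Nat.card_eq_fintype_card, hS.card_right] at h
  have hle : Nat.card P * P.index ≤ Nat.card P *
      (finrank k (fixLeft (k := k) P ⊓ V : Submodule k _) +
        finrank k (fixLeft (k := k) P ⊓ V' : Submodule k _)) :=
    Nat.mul_le_mul_left _ (hidx.trans hfix)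
  rw [P.card_mul_index, mul_add] at hle
  exact ⟨finrank k (fixLeft (k := k) P ⊓ V : Submodule k _), by omega⟩

end Cfsg.Agent.H31.TwoChar
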