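import Cfsg.Agent.H31.TwoChar.Reduction
import Cfsg.Agent.H42.ClassMult
import Mathlib

/-!
# The simple modules of a block are at most as many as its regular rank
-/

set_option autoImplicit false
set_option linter.unusedSectionVars false
set_option maxHeartbeats 1000000
set_option synthInstance.maxHeartbeats 200000

namespace Cfsg.Agent.H31.TwoChar

open Cfsg Module
open Cfsg.Agent.H41 (ResField localRing res)
open Cfsg.Agent.H42 (blockFinset mem_blockFinset)

variable {G : Type*} [Group G] [Finite G] {p : ℕ} [hp : Fact p.Prime] {M : Ideal Cfsg.AlgInt}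
  [M.IsMaximal] {B : Set (IrrCharacter G)}

/-- The simple quotients of a reduced block algebra are at most `l(B)` in number. -/
theorem card_simple_quotients_le (hM : IsPModular p M) (hB : IsPBlock M B) (d : ℕ)
    (dd : Fin d → ℕ) (hdd : ∀ i, NeZero (dd i))
    (F : MonoidAlgebra (ResField M) G →ₐ[ResField M]
      ((i : Fin d) → Matrix (Fin (dd i)) (Fin (dd i)) (ResField M)))
    (hF : Function.Surjective F)
    (hFe : F ((H41.idemBar hB : H41.groupAlgCenter (ResField M) G) :
      MonoidAlgebra (ResField M) G) = 1) :
    d ≤ blockRank p B := by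
  classical
  have := Fintype.ofFinite G
  have := H41.IsPModular.charP hM
  have := H41.finite_irrCharacter (G := G)
  let g1 : G → MonoidAlgebra (ResField M) G := fun g => MonoidAlgebra.single g 1
  let f : Fin d → G → ResField M := fun i g => ((F (g1 g)) i).trace
  have hg1mul : ∀ a b, g1 a * g1 b = g1 (a * b) := fun a b => by
    simp [g1, MonoidAlgebra.single_mul_single]
  -- dependence only on the regular part
  have hpart : ∀ (i : Fin d) (u y : G), (∃ j, orderOf u = p ^ j) → Commute u y →
      f i (u * y) = f i y := by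
    intro i u y hu hc
    obtain ⟨j, hj⟩ := hu
    have : CharP (MonoidAlgebra (ResField M) G) p :=
      charP_of_injective_ringHom (algebraMap (ResField M) (MonoidAlgebra (ResField M) G)).injective p
    have hcg : Commute (g1 (u * y)) (g1 y) := by
      show g1 (u * y) * g1 y = g1 y * g1 (u * y)
      rw [hg1mul, hg1mul, ← mul_assoc y u y, hc.symm.eq, mul_assoc]
    have hnil : IsNilpotent (g1 (u * y) - g1 y) := by
      refine ⟨p ^ j, ?_⟩
      rw [sub_pow_char_pow_of_commute _ _ hcg]
      have hpw : ∀ (g : G) (n : ℕ), g1 g ^ n = g1 (g ^ n) := fun g n => by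
        simp [g1, MonoidAlgebra.single_pow]
      rw [hpw, hpw, hc.mul_pow, ← hj, pow_orderOf_eq_one, one_mul, sub_self]
    have hm : IsNilpotent ((F (g1 (u * y) - g1 y)) i) :=
      (hnil.map F).map (Pi.evalRingHom (fun i => Matrix (Fin (dd i)) (Fin (dd i)) (ResField M)) i)
    have h := (Matrix.isNilpotent_trace_of_isNilpotent hm).eq_zero
    rw [map_sub, Pi.sub_apply, Matrix.trace_sub, sub_eq_zero] at h
    exact h
  -- the lifts
  have hs := H41.res_surjective (M := M)
  let ft : Fin d → G → localRing M := fun i g => Function.surjInv hs (f i g)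
  have hfconj : ∀ i g x, f i (x * g * x⁻¹) = f i g := fun i g x => by
    show ((F (g1 (x * g * x⁻¹))) i).trace = _
    rw [← hg1mul, ← hg1mul, map_mul, map_mul, Pi.mul_apply, Pi.mul_apply, Matrix.trace_mul_comm,
      ← mul_assoc, ← Pi.mul_apply (F (g1 x⁻¹)), ← map_mul, hg1mul, inv_mul_cancel]
    have h1 : g1 (1 : G) = 1 := (MonoidAlgebra.one_def).symm
    rw [h1, map_one, Pi.one_apply, one_mul]
  let bc : G → localRing M := fun x => ⟨blockCoeff B x, H41.blockCoeff_mem hB x⟩
  let P : Fin d → G → localRing M := fun i y =>
    if p ∣ orderOf y then 0 else ∑ x : G, bc x * ft i (x * y)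
  let v : Fin d → MonoidAlgebra (localRing M) G := fun i => H40.ofFun (P i)
  have hred : ∀ i y, ¬ p ∣ orderOf y → res M (P i y) = f i y := by
    intro i y hy
    simp only [P, if_neg hy, map_sum, map_mul, ft, Function.surjInv_eq]
    have heb : ((H41.idemBar hB : H41.groupAlgCenter (ResField M) G) :
        MonoidAlgebra (ResField M) G) = ∑ x : G, res M (bc x) • g1 x := by
      conv_lhs => rw [H40.eq_sum_single
        ((H41.idemBar hB : H41.groupAlgCenter (ResField M) G) : MonoidAlgebra (ResField M) G)]
      refine Finset.sum_congr rfl fun x _ => ?_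
      rw [H41.coeff_idemBar]
      simp [g1, bc]
    have h : F (((H41.idemBar hB : H41.groupAlgCenter (ResField M) G) :
        MonoidAlgebra (ResField M) G) * g1 y) = F (g1 y) := by
      rw [map_mul, hFe, one_mul]
    rw [heb, Finset.sum_mul] at h
    have h' := congrArg (fun z => (z i).trace) h
    simp only [map_sum, Finset.sum_apply, Matrix.trace_sum, smul_mul_assoc, hg1mul, map_smul,
      Pi.smul_apply, Matrix.trace_smul, smul_eq_mul] at h'
    exact h'
  have hli : LinearIndependent (ResField M) fun i => downK (v i) := by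
    rw [Fintype.linearIndependent_iff]
    intro c hc i0
    have hreg : ∀ y : G, ¬ p ∣ orderOf y → ∑ i, c i * f i y = 0 := fun y hy => by
      have h := congrArg (fun a : MonoidAlgebra (ResField M) G => a.coeff y) hc
      simpa [v, MonoidAlgebra.coeff_sum, hred _ y hy] using h
    have hall : ∀ g : G, ∑ i, c i * f i g = 0 := by
      intro g
      obtain ⟨x, hx⟩ := H40.exists_isPPart (p := p) g
      obtain ⟨y, hy, hcom, hxp, hyreg⟩ := hx
      rw [← hy, Finset.sum_congr rfl fun i _ => by rw [hpart i x y hxp hcom]]
      exact hreg y hyreg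
    obtain ⟨a, ha⟩ := hF (Pi.single i0 (Matrix.single 0 0 1))
    let L : MonoidAlgebra (ResField M) G →ₗ[ResField M] ResField M :=
      ∑ i, c i • ((Matrix.traceLinearMap (Fin (dd i)) (ResField M) (ResField M)).comp
        ((LinearMap.proj i).comp F.toLinearMap))
    have hL : ∀ z, L z = ∑ i, c i * ((F z) i).trace := fun z => by simp [L]
    have h0 : L a = 0 := by
      rw [H40.eq_sum_single a, map_sum]
      refine Finset.sum_eq_zero fun x _ => ?_
      have e : MonoidAlgebra.single x (a.coeff x) = (a.coeff x) • g1 x := by simp [g1]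
      rw [e, map_smul, hL]
      show a.coeff x • (∑ i, c i * f i x) = 0
      rw [hall, smul_zero]
    rw [hL, ha, Finset.sum_eq_single i0] at h0
    · simpa using h0
    · intro i _ hi
      simp [Pi.single_eq_of_ne hi]
    · simp
  let W : Submodule ℂ (G → ℂ) :=
    Submodule.span ℂ ((fun χ : IrrCharacter G => pRegularPart p (χ : G → ℂ)) '' B)
  let oF : (G → ℂ) →ₗ[ℂ] MonoidAlgebra ℂ G :=
    { toFun := fun h => H40.ofFun h
      map_add' := fun a b => H40.ext_coeff fun g => by simp
      map_smul' := fun r a => H40.ext_coeff fun g => by simp }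
  have hmem : ∀ i, upC (v i) ∈ W.map oF := by
    intro i
    refine ⟨fun y => (P i y : ℂ), ?_, H40.ext_coeff fun y => by simp [oF, v]⟩
    have hcl : IsClassFunction G fun g => ((ft i g : localRing M) : ℂ) := by
      intro g h
      show ((Function.surjInv hs (f i _) : localRing M) : ℂ) = _
      rw [hfconj]
    have hfun := H26.class_function_expansion _ hcl
    set a : IrrCharacter G → ℂ := fun ψ =>
      classInner (fun g => ((ft i g : localRing M) : ℂ)) (ψ : G → ℂ) with ha
    have hval : ∀ (ψ : IrrCharacter G) (y : G),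
        ∑ x : G, blockCoeff B x * (ψ : G → ℂ) (x * y) =
          if ψ ∈ B then (ψ : G → ℂ) y else 0 := by
      intro ψ y
      have h1 := H42.irr_sum_mul ψ (blockCoeff B) (fun g h => H41.blockCoeff_conj_inv B g h) y
      have h2 := H41.omega_blockIdem B ψ
      rw [H41.omega_apply] at h2
      simp only [H41.coeff_blockIdem] at h2
      rw [h1, h2]
      split <;> simp
    have hP : (fun y => (P i y : ℂ)) = ∑ ψ ∈ blockFinset B, a ψ • pRegularPart p (ψ : G → ℂ) := by
      funext y
      simp only [Finset.sum_apply, Pi.smul_apply, smul_eq_mul, pRegularPart, IsPRegular]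
      by_cases hy : p ∣ orderOf y
      · simp [P, hy]
      · simp only [P, if_neg hy, hy, not_false_eq_true, if_true]
        push_cast
        have e : ∀ x : G, ((ft i (x * y) : localRing M) : ℂ) =
            ∑ ψ : IrrCharacter G, a ψ * (ψ : G → ℂ) (x * y) := fun x => by
          have := congrFun hfun (x * y)
          simpa [Finset.sum_apply, ha] using this
        simp only [bc, e, Finset.mul_sum]
        rw [Finset.sum_comm]
        rw [Finset.sum_congr rfl fun ψ _ => show ∑ x : G, blockCoeff B x *
            (a ψ * (ψ : G → ℂ) (x * y)) = a ψ * if ψ ∈ B then (ψ : G → ℂ) y else 0 by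
          rw [← hval, Finset.mul_sum]
          exact Finset.sum_congr rfl fun x _ => by ring]
        rw [← Finset.sum_subset (Finset.subset_univ (blockFinset B)) fun ψ _ hψ => by
          rw [if_neg fun h => hψ (mem_blockFinset.2 h), mul_zero]]
        exact Finset.sum_congr rfl fun ψ hψ => by rw [if_pos (mem_blockFinset.1 hψ)]
    rw [hP]
    exact W.sum_mem fun ψ hψ => W.smul_mem _ (Submodule.subset_span ⟨ψ, mem_blockFinset.1 hψ, rfl⟩)
  have h := card_le_finrank v hli _ hmem
  rw [Fintype.card_fin] at h
  exact h.trans (Submodule.finrank_map_le oF W)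

end Cfsg.Agent.H31.TwoChar
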