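import Cfsg.Agent.H31.TwoChar.LocalAlgebra
import Cfsg.Agent.H31.TwoChar.SimpleCount
import Cfsg.Agent.H31.TwoChar.Projective
import Cfsg.Agent.H40.BlockDefect
import Cfsg.Agent.H40.HeightZero
import Cfsg.Agent.H40.KleinFour
import Cfsg.Agent.H43.D1.ModP
import Cfsg.Agent.S4687
import Mathlib

/-!
# Blocks of regular rank one with at most four characters
-/

set_option autoImplicit false
set_option linter.unusedSectionVars false
set_option maxHeartbeats 1000000
set_option synthInstance.maxHeartbeats 200000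

namespace Cfsg.Agent.H31.TwoChar

open Cfsg Module
open Cfsg.Agent.H41 (ResField localRing res)
open Cfsg.Agent.H42 (blockFinset mem_blockFinset)
open Cfsg.Agent.H22 (IsMaxEl IsBlockEl elTop el pairStab)

universe u

variable {G : Type u} [Group G] [Fintype G] {p : ℕ} [hp : Fact p.Prime] {M : Ideal Cfsg.AlgInt}
  [M.IsMaximal] {B : Set (IrrCharacter G)}

/-- The order of a defect group of such a block is the number of its characters. -/
theorem pow_defect_eq_card (hM : IsPModular p M) (hB : IsPBlock M B) (hl : blockRank p B = 1)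
    (hk : Nat.card B ≤ 4) : p ^ blockDefect p B = Nat.card B := by
  classical
  have := H43.D1.isAlgClosed_resField M
  have := H41.IsPModular.charP hM
  have : FiniteDimensional (ResField M) (MonoidAlgebra (ResField M) G) :=
    Module.Finite.of_basis (MonoidAlgebra.basis G (ResField M))
  -- the upper bound
  obtain ⟨φ, d, nn, -, hd, hW⟩ := H40.exists_rank_one_data hM hB hl
  have h1 : ¬ p ∣ orderOf (1 : G) := by simpa using hp.out.not_dvd_one
  have hdpos : ∀ χ ∈ B, 1 ≤ d χ ^ 2 := fun χ hχ => by
    refine Nat.one_le_pow _ _ (Nat.pos_of_ne_zero fun h0 => H26.irr_one_ne_zero χ ?_)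
    rw [hd χ hχ 1 h1, h0, Nat.cast_zero, zero_mul]
  have hupper : Nat.card B ≤ p ^ blockDefect p B := by
    rw [← hW, ← H42.card_blockFinset]
    have h := Finset.sum_le_sum fun χ hχ => hdpos χ (mem_blockFinset.1 hχ)
    simpa using h
  -- the block algebra
  set ebZ : H41.groupAlgCenter (ResField M) G := H41.idemBar hB with hebZ
  set eb : MonoidAlgebra (ResField M) G := (ebZ : MonoidAlgebra (ResField M) G) with heb
  have hee : eb * eb = eb := congrArg Subtype.val (H41.isIdempotentElem_idemBar hB)
  have hec : ∀ a, a * eb = eb * a := fun a => Subalgebra.mem_center_iff.1 ebZ.2 a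
  have heb0 : eb ≠ 0 := by
    intro h0
    obtain ⟨χ, hχ⟩ := H41.IsPBlock.nonempty hB
    have h := H41.omegaBar_idemBar_self hB hχ
    rw [show H41.idemBar hB = 0 from Subtype.ext h0, map_zero] at h
    exact zero_ne_one h
  let I : Ideal (MonoidAlgebra (ResField M) G) :=
    { carrier := {a | a * eb = 0}
      add_mem' := fun {a b} ha hb => by
        simp only [Set.mem_ofPred_eq] at ha hb ⊢
        rw [add_mul, ha, hb, add_zero]
      zero_mem' := zero_mul _
      smul_mem' := fun c a ha => by
        simp only [Set.mem_ofPred_eq, smul_eq_mul] at ha ⊢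
        rw [mul_assoc, ha, mul_zero] }
  have hIts : I.IsTwoSided := ⟨fun {a} b ha => by
    show a * b * eb = 0
    rw [mul_assoc, hec b, ← mul_assoc, show a * eb = 0 from ha, zero_mul]⟩
  let mk : MonoidAlgebra (ResField M) G →ₐ[ResField M] MonoidAlgebra (ResField M) G ⧸ I :=
    Ideal.Quotient.mkₐ (ResField M) I
  have hmk : Function.Surjective mk := Ideal.Quotient.mkₐ_surjective _ _
  have : FiniteDimensional (ResField M) (MonoidAlgebra (ResField M) G ⧸ I) :=
    Module.Finite.of_surjective mk.toLinearMap hmk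
  obtain ⟨Ψ, hΨ⟩ : ∃ Ψ : (MonoidAlgebra (ResField M) G ⧸ I) →ₗ[ResField M]
      MonoidAlgebra (ResField M) G, ∀ a, Ψ (mk a) = a * eb :=
    ⟨(I.restrictScalars (ResField M)).liftQ (LinearMap.mulRight (ResField M) eb)
      (fun a ha => ha) ∘ₗ (Submodule.Quotient.restrictScalarsEquiv (ResField M) I).symm.toLinearMap,
      fun a => rfl⟩
  have hΨinj : Function.Injective Ψ := by
    rw [injective_iff_map_eq_zero]
    intro x hx
    obtain ⟨a, rfl⟩ := hmk x
    exact Ideal.Quotient.eq_zero_iff_mem.2 (show a * eb = 0 by rwa [hΨ] at hx)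
  have hΨmul : ∀ x y, Ψ (x * y) = Ψ x * Ψ y := by
    intro x y
    obtain ⟨a, rfl⟩ := hmk x
    obtain ⟨b, rfl⟩ := hmk y
    rw [← map_mul, hΨ, hΨ, hΨ]
    calc a * b * eb = a * (b * eb) * eb := by rw [mul_assoc a (b * eb), mul_assoc b, hee, mul_assoc]
      _ = _ := by rw [hec b, ← mul_assoc a eb b, mul_assoc (a * eb) b eb, ← hec b]
  have hrange : LinearMap.range Ψ = LinearMap.range (LinearMap.mulRight (ResField M) eb) := by
    refine le_antisymm ?_ ?_
    · rintro _ ⟨x, rfl⟩
      obtain ⟨a, rfl⟩ := hmk x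
      exact ⟨a, (hΨ a).symm⟩
    · rintro _ ⟨a, rfl⟩
      exact ⟨mk a, hΨ a⟩
  have : Nontrivial (MonoidAlgebra (ResField M) G ⧸ I) := by
    refine nontrivial_of_ne (mk 1) 0 fun h => heb0 ?_
    have h' := hΨ 1
    rw [h, map_zero, one_mul] at h'
    exact h'.symm
  let c1 : MonoidAlgebra (ResField M) G →ₗ[ResField M] ResField M :=
    { toFun := fun a => a.coeff 1
      map_add' := fun a b => by simp
      map_smul' := fun r a => by simp }
  have hsymc : ∀ a b : MonoidAlgebra (ResField M) G, c1 (a * b) = c1 (b * a) := by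
    intro a b
    show (a * b).coeff 1 = (b * a).coeff 1
    rw [H40.coeff_mul_eq_sum, H40.coeff_mul_eq_sum]
    refine Fintype.sum_equiv (Equiv.inv G) _ _ fun x => ?_
    simp [mul_comm]
  have hnd : ∀ x, (∀ y, (c1 ∘ₗ Ψ) (x * y) = 0) → x = 0 := by
    intro x hx
    obtain ⟨a, rfl⟩ := hmk x
    refine hΨinj ?_
    rw [hΨ, map_zero]
    refine H40.ext_coeff fun g => ?_
    have h := hx (mk (MonoidAlgebra.single g⁻¹ 1))
    rw [LinearMap.comp_apply, ← map_mul, hΨ, mul_assoc, hec, ← mul_assoc] at h
    have h' : (a * eb * MonoidAlgebra.single g⁻¹ 1).coeff 1 = 0 := h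
    simpa using h'
  have hsym : ∀ x y, (c1 ∘ₗ Ψ) (x * y) = (c1 ∘ₗ Ψ) (y * x) := fun x y => by
    rw [LinearMap.comp_apply, LinearMap.comp_apply, hΨmul, hΨmul, hsymc]
  have hcen : finrank (ResField M)
      (Subalgebra.center (ResField M) (MonoidAlgebra (ResField M) G ⧸ I)) ≤ Nat.card B := by
    have hS := finrank_center_le (M := M) hB
      ((Subalgebra.toSubmodule (Subalgebra.center (ResField M)
        (MonoidAlgebra (ResField M) G ⧸ I))).map Ψ) (by
        rintro _ ⟨x, hx, rfl⟩
        rw [SetLike.mem_coe, Subalgebra.mem_toSubmodule, Subalgebra.mem_center_iff] at hx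
        obtain ⟨a, rfl⟩ := hmk x
        rw [hΨ]
        refine ⟨Subalgebra.mem_center_iff.2 fun b => ?_, by rw [mul_assoc]; exact congrArg _ hee⟩
        have h := congrArg Ψ (hx (mk b))
        rw [← map_mul, ← map_mul, hΨ, hΨ] at h
        rw [← mul_assoc, h, mul_assoc, mul_assoc, hec b])
    rw [(Submodule.equivMapOfInjective Ψ hΨinj _).finrank_eq.symm] at hS
    exact hS
  have hcomm := (finrank_quot_comm_le (c1 ∘ₗ Ψ) hsym hnd).trans hcen
  obtain ⟨n, c, e, hee', hdim, hcle, hcol⟩ := exists_matrix_form (c1 ∘ₗ Ψ) hsym hnd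
    (hcomm.trans hk) fun m dd hdd F hF => by
      refine (card_simple_quotients_le hM hB m dd hdd (F.comp mk) (hF.comp hmk) ?_).trans_eq hl
      have h : mk eb = 1 := hΨinj (by rw [hΨ, hee, ← map_one mk, hΨ, one_mul])
      show F (mk eb) = 1
      rw [h, map_one]
  set W := ∑ χ ∈ blockFinset B, charDegree (χ : G → ℂ) ^ 2 with hWdef
  have hdimW : n ^ 2 * c = W := by
    rw [← hdim, (LinearEquiv.ofInjective Ψ hΨinj).finrank_eq, hrange]
    exact finrank_blockAlg hB
  -- the projective module
  have hf : Ψ e * Ψ e = Ψ e := by rw [← hΨmul, hee']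
  have hcolG : finrank (ResField M) (LinearMap.range (LinearMap.mulRight (ResField M) (Ψ e))) =
      n * c := by
    have hmap : (LinearMap.range (LinearMap.mulRight (ResField M) e)).map Ψ =
        LinearMap.range (LinearMap.mulRight (ResField M) (Ψ e)) := by
      refine le_antisymm ?_ ?_
      · rintro _ ⟨_, ⟨x, rfl⟩, rfl⟩
        exact ⟨Ψ x, by simp [hΨmul]⟩
      · rintro _ ⟨a, rfl⟩
        refine ⟨mk a * e, ⟨mk a, rfl⟩, ?_⟩
        rw [hΨmul, hΨ, LinearMap.mulRight_apply, mul_assoc]
        congr 1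
        obtain ⟨b, rfl⟩ := hmk e
        rw [hΨ, ← mul_assoc, ← hec b, mul_assoc, hee]
    rw [← hmap, ← (Submodule.equivMapOfInjective Ψ hΨinj _).finrank_eq, hcol]
  obtain ⟨P⟩ : Nonempty (Sylow p G) := inferInstance
  have hdvd := card_dvd_finrank_range P.isPGroup' (Ψ e) hf
  rw [hcolG, P.card_eq_multiplicity] at hdvd
  have hfac := H42.factorization_sum_sq_degree hM hB
  rw [← hWdef, ← hdimW] at hfac
  have hW0 : n ^ 2 * c ≠ 0 := by
    intro h
    obtain ⟨χ, hχ⟩ := H41.IsPBlock.nonempty hB
    have h' := Finset.single_le_sum (f := fun χ : IrrCharacter G => charDegree (χ : G → ℂ) ^ 2)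
      (fun _ _ => Nat.zero_le _) (mem_blockFinset.2 hχ)
    rw [← hWdef, ← hdimW, h] at h'
    exact (pow_ne_zero 2 (H42.charDegree_pos χ).ne') (Nat.le_zero.1 h')
  obtain ⟨hn0, hc0⟩ : n ≠ 0 ∧ c ≠ 0 := by
    refine ⟨fun h => hW0 (by simp [h]), fun h => hW0 (by simp [h])⟩
  rw [Nat.factorization_mul (pow_ne_zero _ hn0) hc0, Finsupp.add_apply, Nat.factorization_pow,
    Finsupp.smul_apply, smul_eq_mul] at hfac
  have hA := (hp.out.pow_dvd_iff_le_factorization (Nat.mul_ne_zero hn0 hc0)).1 hdvd
  rw [Nat.factorization_mul hn0 hc0, Finsupp.add_apply] at hA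
  have hle : blockDefect p B ≤ (Nat.card G).factorization p := Nat.sub_le _ _
  have hlower : p ^ blockDefect p B ≤ c := Nat.le_of_dvd (Nat.pos_of_ne_zero hc0)
    ((hp.out.pow_dvd_iff_le_factorization hc0).2 (by omega))
  exact le_antisymm (hlower.trans (hcle.trans hcomm)) hupper

/-- A pair stabiliser element of `p'`-index action squaring into the centraliser centralises. -/
theorem mem_of_pow_two {C T : Subgroup G} (hn : (C.subgroupOf T).Normal)
    (hodd : ¬ 2 ∣ C.relIndex T) {x : G} (hxT : x ∈ T) (hx2 : x * x ∈ C) : x ∈ C := by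
  obtain ⟨m, hm⟩ := Nat.odd_iff.2 (Nat.two_dvd_ne_zero.1 hodd)
  have h : (⟨x, hxT⟩ : T) ^ C.relIndex T ∈ C.subgroupOf T :=
    Subgroup.pow_index_mem (C.subgroupOf T) _
  rw [Subgroup.mem_subgroupOf, SubmonoidClass.coe_pow, hm, pow_succ, pow_mul] at h
  exact (C.mul_mem_cancel_left (C.pow_mem (by rwa [sq]) m)).1 h

/-- Rank one with at most four characters: nilpotent. -/
theorem rank_one_small {G : Type u} [Group G] [Finite G] {p : ℕ} [hp : Fact p.Prime]
    {M : Ideal Cfsg.AlgInt} (hM : IsPModular p M) {B : Set (IrrCharacter G)} (hB : IsPBlock M B)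
    {D : Subgroup G} (hD : IsDefectGroup p M B D) (hD1 : D ≠ ⊥) (hl : blockRank p B = 1)
    (hk : Nat.card B ≤ 4) :
    IsNilpotentBlock p M B ∧ Nat.card D = Nat.card B ∧ (p = 2 ∨ p = 3) := by
  classical
  have := Fintype.ofFinite G
  have := hM.2.1
  have := H41.IsPModular.charP hM
  have hcard := pow_defect_eq_card hM hB hl hk
  have hcD := H40.card_defectGroup hM hB hD
  have hDk : Nat.card D = Nat.card B := hcD.trans hcard
  have hD4 : Nat.card D ≤ 4 := hDk ▸ hk
  have hDne : Nat.card D ≠ 1 := fun h => hD1 (Subgroup.card_eq_one.1 h)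
  have hDpos : 0 < Nat.card D := Nat.card_pos
  have ha : blockDefect p B ≠ 0 := fun h => hDne (by rw [hcD, h, pow_zero])
  have hp4 : p ≤ 4 := (Nat.le_self_pow ha p).trans (hcard.trans_le hk)
  have hp23 : p = 2 ∨ p = 3 := by
    have := hp.out.two_le
    interval_cases p
    · exact Or.inl rfl
    · exact Or.inr rfl
    · exact absurd hp.out (by norm_num)
  refine ⟨?_, hDk, hp23⟩
  have hS := H22.split M G
  have hb := H22.isBlockEl_elTop hB
  obtain ⟨e, hm⟩ : ∃ e, IsMaxEl p ⊤ (elTop M B) (D, e) := by
    have hdef := (H22.isDefectGroup_top_iff hM hB).1 hD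
    obtain ⟨ε, hpair, hbel⟩ := H22.exists_pair_below hS hb hdef.le hdef.pGroup hdef.ne_zero
    exact ⟨ε, H22.isMaxEl_of_isDefEl hpair hbel hdef⟩
  obtain ⟨c, hc, hce⟩ := H22.exists_el_eq (K := Subgroup.centralizer (D : Set G))
    (ε := e) (by simpa using hm.pair.block)
  subst hce
  have hpair : IsBrauerPair p M D c := ⟨hm.pair.pGroup, hc⟩
  have hmax : IsMaximalBrauerPair p M B D c :=
    H22.isMaximal_iff.2 ⟨(H22.isBrauerPairOf_iff hB hpair).2 hm.below, hm⟩
  have hab : ∀ x ∈ D, ∀ y ∈ D, x * y = y * x := by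
    have hcases : Nat.card D = 2 ∨ Nat.card D = 3 ∨ Nat.card D = 4 := by omega
    have : IsMulCommutative D := by
      rcases hcases with h | h | h
      · have : IsCyclic D := by
          have : Fact (Nat.Prime 2) := ⟨Nat.prime_two⟩
          exact isCyclic_of_prime_card h
        infer_instance
      · have : IsCyclic D := by
          have : Fact (Nat.Prime 3) := ⟨Nat.prime_three⟩
          exact isCyclic_of_prime_card h
        infer_instance
      · have : Fact (Nat.Prime 2) := ⟨Nat.prime_two⟩
        exact IsPGroup.isMulCommutative_of_card_eq_prime_sq (p := 2) (by rw [h]; norm_num)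
    exact fun x hx y hy => congrArg Subtype.val (mul_comm' (⟨x, hx⟩ : D) ⟨y, hy⟩)
  refine (Cfsg.Agent.S4687.result p M hM B D c hmax hab).2 fun x hxN hxs => ?_
  set ε := el M (Subgroup.centralizer (D : Set G)) c with hε
  have hxT : x ∈ pairStab D ε :=
    Subgroup.mem_inf.2 ⟨hxN, (H22.stabilizesBlock_iff hc
      (H22.normalizer_le_normalizer_centralizer D hxN)).1 hxs⟩
  set C := Subgroup.centralizer (D : Set G) with hC
  have hCT : C ≤ pairStab D ε := H40.centralizer_le_pairStab' hm
  have hndvd := H40.not_dvd_relIndex_pairStab hM hB hm hab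
  have hone : C.relIndex (pairStab D ε) = 1 → x ∈ C := fun h =>
    Subgroup.relIndex_eq_one.1 h hxT
  have hnormC : (C.subgroupOf (pairStab D ε)).Normal :=
    (Subgroup.normal_subgroupOf_iff_le_normalizer hCT).2
      (inf_le_left.trans (H22.normalizer_le_normalizer_centralizer D))
  -- an element outside the identity
  have hexu : ∃ u ∈ D, u ≠ 1 := by
    by_contra h
    push Not at h
    exact hD1 ((Subgroup.eq_bot_iff_forall D).2 h)
  obtain ⟨u, hu, hu1⟩ := hexu
  have hconjD : ∀ v ∈ D, x * v * x⁻¹ ∈ D := fun v hv => (Subgroup.mem_normalizer_iff.1 hxN v).1 hv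
  rcases (show Nat.card D = 2 ∨ Nat.card D = 3 ∨ Nat.card D = 4 by omega) with h2 | h3 | h4
  · -- order two
    rw [hC, Subgroup.mem_centralizer_iff]
    intro v hv
    have htwo : ∀ w ∈ D, w = 1 ∨ w = u := by
      intro w hw
      have h' := Nat.card_eq_two_iff' (1 : D) |>.1 h2
      by_contra hne
      push Not at hne
      exact hne.2 (congrArg Subtype.val (h'.unique (y₁ := ⟨w, hw⟩) (y₂ := ⟨u, hu⟩)
        (fun e => hne.1 (congrArg Subtype.val e)) (fun e => hu1 (congrArg Subtype.val e))))
    rcases htwo v hv with rfl | rfl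
    · simp
    · rcases htwo _ (hconjD v hv) with h | h
      · exact absurd (by simpa using h) hu1
      · calc v * x = (x * v * x⁻¹) * x := by rw [h]
          _ = x * v := by group
  · -- order three
    refine hone ?_
    have : Fintype D := Fintype.ofFinite D
    choose bs hbs using fun v : D => H40.exists_subAt hM hB hm hab v.2
    let b : ∀ g : G, Set (IrrCharacter (Subgroup.centralizer ({g} : Set G))) := fun g =>
      if h : g ∈ D then bs ⟨g, h⟩ else ∅
    have hbb : ∀ g (hg : g ∈ D), H40.SubAt p M D ε g (b g) := fun g hg => by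
      simp only [b, dif_pos hg]
      exact hbs ⟨g, hg⟩
    have hgen : ∀ v ∈ D, v ≠ 1 → Subgroup.zpowers v = D := fun v hv hv1 => by
      have : Fact (Nat.card D).Prime := ⟨h3 ▸ Nat.prime_three⟩
      have hle : Subgroup.zpowers v ≤ D := Subgroup.zpowers_le.2 hv
      refine Subgroup.eq_of_le_of_card_ge hle ?_
      have hd := Subgroup.card_dvd_of_le hle
      rw [Nat.card_zpowers, h3] at hd
      rcases (Nat.dvd_prime Nat.prime_three).1 hd with h | h
      · exact absurd (orderOf_eq_one_iff.1 h) hv1
      · rw [Nat.card_zpowers, h, h3]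
    have hterm : ∀ v : D, v ≠ 1 →
        C.relIndex (pairStab D ε ⊓ Subgroup.centralizer ({(v : G)} : Set G)) *
          blockRank p (b v) = 1 := by
      intro v hv
      have hv1 : (v : G) ≠ 1 := fun h => hv (Subtype.ext h)
      have hcv : Subgroup.centralizer ({(v : G)} : Set G) = C := by
        rw [← H40.centralizer_zpowers_eq, hgen _ v.2 hv1]
      obtain ⟨-, -, hdef⟩ := H40.isInducedBlock_of_subAt hM hB hm hab (hbb v v.2)
      have : Fintype (Subgroup.centralizer ({(v : G)} : Set G)) := Fintype.ofFinite _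
      rw [H40.blockRank_eq_one_of_centric hM (hm.pair.pGroup.comap_subtype)
        (top_le_iff.1 fun k _ => Subgroup.mem_sup_right (Subgroup.mem_centralizer_iff.2 fun z hz =>
          Subtype.ext (Subgroup.mem_centralizer_iff.1 (hcv.le k.2 : (k : G) ∈ C) (z : G)
            (Subgroup.mem_subgroupOf.1 hz)))) (hbb v v.2).1 hdef, mul_one, hcv]
      exact Subgroup.relIndex_eq_one.2 inf_le_right
    have hone' : C.relIndex (pairStab D ε ⊓ Subgroup.centralizer ({((1 : D) : G)} : Set G)) *
        blockRank p (b ((1 : D) : G)) = C.relIndex (pairStab D ε) := by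
      have htop : Subgroup.centralizer ({((1 : D) : G)} : Set G) = ⊤ := by
        ext; simp [Subgroup.mem_centralizer_singleton_iff]
      obtain ⟨hind, -, -⟩ := H40.isInducedBlock_of_subAt hM hB hm hab (hbb _ (1 : D).2)
      rw [H40.blockRank_eq_of_top p _ htop hind, hl, mul_one, htop, inf_top_eq]
    have hsum := H40.card_mul_eq_sum_subAt hM hB hm hab b hbb
    rw [← Finset.add_sum_erase _ _ (Finset.mem_univ (1 : D)), hone',
      Finset.sum_congr rfl (fun v hv => hterm v (Finset.ne_of_mem_erase hv)), Finset.sum_const,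
      smul_eq_mul, mul_one, Finset.card_erase_of_mem (Finset.mem_univ _), Finset.card_univ,
      ← Nat.card_eq_fintype_card, ← hDk, h3] at hsum
    simp only [← hC] at hsum
    omega
  · -- order four
    have hp2 : p = 2 := by
      rcases hp23 with h | h
      · exact h
      · exfalso
        subst h
        have h34 : 3 ∣ Nat.card D := hcD ▸ dvd_pow_self 3 ha
        rw [h4] at h34
        norm_num at h34
    subst hp2
    by_cases hsq : ∀ v ∈ D, v * v = 1
    · refine hone ?_
      have h := H40.klein_four_invariants hM hB hm hD h4 hsq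
      rw [hl] at h
      exact h.2.2.symm
    · push Not at hsq
      obtain ⟨w, hw, hw2⟩ := hsq
      refine mem_of_pow_two hnormC hndvd hxT ?_
      have hord : orderOf w = 4 := by
        have hd := Subgroup.orderOf_dvd_natCard D hw
        rw [h4] at hd
        have hne : ¬ orderOf w ∣ 2 := fun h => hw2 (by rw [← sq]; exact orderOf_dvd_iff_pow_eq_one.1 h)
        obtain ⟨j, hj, hjw⟩ := (Nat.dvd_prime_pow Nat.prime_two).1 (show orderOf w ∣ 2 ^ 2 by simpa using hd)
        interval_cases j
        · exact absurd (by simp [hjw]) hne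
        · exact absurd (by simp [hjw]) hne
        · simpa using hjw
      have hgen : Subgroup.zpowers w = D :=
        Subgroup.eq_of_le_of_card_ge (Subgroup.zpowers_le.2 hw) (by rw [Nat.card_zpowers, hord, h4])
      have hxw : x * w * x⁻¹ = w ∨ x * w * x⁻¹ = w⁻¹ := by
        have h' := hconjD w hw
        rw [← hgen] at h'
        obtain ⟨j, hj⟩ := Subgroup.mem_zpowers_iff.1 h'
        have ho : orderOf (x * w * x⁻¹) = 4 := by
          rw [← MulAut.conj_apply, MulEquiv.orderOf_eq, hord]
        have hw4 : w ^ (4 : ℤ) = 1 := by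
          have := pow_orderOf_eq_one w
          rw [hord] at this
          exact_mod_cast this
        have hred : w ^ j = w ^ (j % 4) := by
          conv_lhs => rw [← Int.mul_ediv_add_emod j 4, zpow_add, zpow_mul, hw4, one_zpow, one_mul]
        rw [hred] at hj
        have h1 := Int.emod_nonneg j (show (4 : ℤ) ≠ 0 by norm_num)
        have h2 := Int.emod_lt_of_pos j (show (0 : ℤ) < 4 by norm_num)
        rcases (show j % 4 = 0 ∨ j % 4 = 1 ∨ j % 4 = 2 ∨ j % 4 = 3 by omega) with e | e | e | e <;>
          rw [e] at hj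
        · rw [← hj, zpow_zero, orderOf_one] at ho
          omega
        · exact Or.inl (by rw [← hj, zpow_one])
        · exfalso
          have : (x * w * x⁻¹) ^ 2 = 1 := by
            rw [← hj, ← zpow_natCast, ← zpow_mul]
            exact_mod_cast hw4
          have := orderOf_dvd_of_pow_eq_one this
          rw [ho] at this
          norm_num at this
        · refine Or.inr ?_
          rw [← hj]
          refine eq_inv_of_mul_eq_one_left ?_
          rw [← zpow_add_one]
          exact_mod_cast hw4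
      have hx2w : x * x * w * (x * x)⁻¹ = w := by
        rcases hxw with h | h
        · calc _ = x * (x * w * x⁻¹) * x⁻¹ := by group
            _ = w := by rw [h, h]
        · calc _ = x * (x * w * x⁻¹) * x⁻¹ := by group
            _ = x * w⁻¹ * x⁻¹ := by rw [h]
            _ = (x * w * x⁻¹)⁻¹ := by group
            _ = w := by rw [h, inv_inv]
      rw [hC, Subgroup.mem_centralizer_iff]
      intro v hv
      rw [← hgen] at hv
      obtain ⟨j, rfl⟩ := Subgroup.mem_zpowers_iff.1 hv
      exact (Commute.zpow_left (show Commute w (x * x) from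
        (mul_inv_eq_iff_eq_mul.1 hx2w).symm) j).eq

end Cfsg.Agent.H31.TwoChar
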