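import Cfsg.Agent.H31.TwoChar.Algebra
import Mathlib

/-!
# Symmetric algebras with one simple module and a small cocommutator space

A symmetric algebra with a single simple module whose space modulo commutators has dimension at
most four is a full matrix algebra over a commutative local algebra.
-/

set_option autoImplicit false
set_option maxHeartbeats 1000000

namespace Cfsg.Agent.H31.TwoChar

open Module

variable {k : Type*} [Field k] {A : Type*} [Ring A] [Algebra k A]

theorem mulLeMulLeft {J X Y : Submodule k A} (h : X ≤ Y) : J * X ≤ J * Y :=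
  Submodule.mul_le.2 fun _ ha _ hb => Submodule.mul_mem_mul ha (h hb)

/-- A subspace equal to a product of itself with a nilpotent one vanishes. -/
theorem eq_bot_of_le_mul {J X : Submodule k A} {N : ℕ} (hN : J ^ N = ⊥) (h : X ≤ J * X) :
    X = ⊥ := by
  have : ∀ m : ℕ, X ≤ J ^ m * X := by
    intro m
    induction m with
    | zero => simp
    | succ m ih =>
      rw [pow_succ, mul_assoc]
      exact ih.trans (mulLeMulLeft h)
  have h2 := this N
  rw [hN, Submodule.bot_mul] at h2
  exact le_bot_iff.1 h2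

/-- Three linear relations forcing both products to vanish. -/
theorem eq_zero_of_relations {Q : Type*} [AddCommGroup Q] [Module k Q] {lx ly rx ry : Q}
    {a p q d : k} (hpq : p - q = 1)
    (h1 : p • rx = q • lx) (h2 : q • ry = p • ly) (h3 : a • ry = p • lx) (h4 : p • ry = d • lx)
    (h5 : q • rx = a • ly) (h6 : d • rx = q • ly) (h7 : a • rx = a • lx) (h8 : d • ry = d • ly) :
    lx = 0 ∧ ly = 0 := by
  by_cases hp : p = 0
  · subst hp
    have hq : q = -1 := by linear_combination -hpq
    subst hq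
    simp only [zero_smul, neg_smul, one_smul, neg_eq_zero, eq_comm (a := (0 : Q))] at h1 h2 h5 h6
    subst h1 h2
    simp only [smul_zero, eq_comm (a := (0 : Q))] at h8
    refine ⟨rfl, ?_⟩
    have h5' : rx = -(a • ly) := by rw [← h5, neg_neg]
    rw [h5', smul_neg, neg_inj, smul_smul, mul_comm, ← smul_smul, h8, smul_zero] at h6
    exact h6.symm
  · have hly : ly = 0 := by
      have e1 : (p * p) • ly = (q * d) • lx := by
        rw [← smul_smul, ← h2, smul_smul, mul_comm, ← smul_smul, h4, smul_smul]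
      have e2 : (p * q) • ly = (q * d) • lx := by
        rw [← smul_smul, ← h6, smul_smul, mul_comm, ← smul_smul, h1, smul_smul, mul_comm]
      have e3 : (p * p - p * q) • ly = 0 := by rw [sub_smul, e1, e2, sub_self]
      rw [← mul_sub, hpq, mul_one] at e3
      exact (smul_eq_zero.1 e3).resolve_left hp
    subst hly
    refine ⟨?_, rfl⟩
    simp only [smul_zero] at h2 h5 h6 h8
    by_cases hq : q = 0
    · subst hq
      have hp1 : p = 1 := by linear_combination hpq
      subst hp1
      simp only [one_smul, zero_smul] at h1 h3 h4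
      subst h1
      rw [smul_zero, eq_comm] at h7
      rw [h4, smul_smul, mul_comm, ← smul_smul, h7, smul_zero] at h3
      exact h3.symm
    · have hry : ry = 0 := (smul_eq_zero.1 h2).resolve_left hq
      rw [hry, smul_zero, eq_comm] at h3
      exact (smul_eq_zero.1 h3).resolve_left hp

/-- A local algebra whose radical is generated by one element is commutative. -/
theorem bracket_eq_bot_one {J0 : Submodule k A} {N : ℕ} (hN : J0 ^ N = ⊥) {x : A}
    (hx : x ∈ J0) (hgen : J0 ≤ Submodule.span k {x} ⊔ J0 * J0) :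
    ∀ a ∈ J0, ∀ b ∈ J0, a * b - b * a = 0 := by
  have hX : ∀ m : ℕ, ∀ a ∈ J0, ∀ b ∈ J0, a * b - b * a ∈ J0 ^ (m + 2) := by
    intro m
    induction m with
    | zero =>
      intro a ha b hb
      rw [pow_succ, pow_one]
      exact Submodule.sub_mem _ (Submodule.mul_mem_mul ha hb) (Submodule.mul_mem_mul hb ha)
    | succ m ih =>
      have h2 : ∀ s ∈ J0 * J0, ∀ b ∈ J0, s * b - b * s ∈ J0 ^ (m + 3) := by
        intro s hs
        induction hs using Submodule.mul_induction_on' with
        | mem_mul_mem p hp q hq =>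
          intro b hb
          rw [show p * q * b - b * (p * q) = p * (q * b - b * q) + (p * b - b * p) * q by
            noncomm_ring]
          refine Submodule.add_mem _ ?_ ?_
          · rw [pow_succ' J0 (m + 2)]
            exact Submodule.mul_mem_mul hp (ih q hq b hb)
          · rw [pow_succ J0 (m + 2)]
            exact Submodule.mul_mem_mul (ih p hp b hb) hq
        | add p _ q _ hp hq =>
          intro b hb
          rw [show (p + q) * b - b * (p + q) = (p * b - b * p) + (q * b - b * q) by noncomm_ring]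
          exact Submodule.add_mem _ (hp b hb) (hq b hb)
      intro a ha b hb
      obtain ⟨_, hr, s, hs, rfl⟩ := Submodule.mem_sup.1 (hgen ha)
      obtain ⟨_, hr', t, ht, rfl⟩ := Submodule.mem_sup.1 (hgen hb)
      obtain ⟨r, rfl⟩ := Submodule.mem_span_singleton.1 hr
      obtain ⟨r', rfl⟩ := Submodule.mem_span_singleton.1 hr'
      rw [show (r • x + s) * (r' • x + t) - (r' • x + t) * (r • x + s) =
          (s * (r' • x + t) - (r' • x + t) * s) - r • (t * x - x * t) by
        simp only [add_mul, mul_add, smul_mul_assoc, mul_smul_comm, smul_sub, smul_add]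
        rw [smul_comm r' r (x * x)]
        abel]
      exact Submodule.sub_mem _ (h2 s hs _ hb) (Submodule.smul_mem _ _ (h2 t ht x hx))
  intro a ha b hb
  have h := hX N a ha b hb
  rw [pow_add, hN, Submodule.bot_mul] at h
  exact h

/-- Two generators with one-dimensional square modulo the cube: the cube vanishes. -/
theorem cube_eq_bot {J0 : Submodule k A} {N : ℕ} (hN : J0 ^ N = ⊥) {x y : A}
    (hx : x ∈ J0) (hy : y ∈ J0) (hgen : J0 ≤ Submodule.span k {x, y} ⊔ J0 * J0)
    (h2 : J0 * J0 ≤ Submodule.span k {x * y - y * x} ⊔ J0 * (J0 * J0)) :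
    J0 * (J0 * J0) = ⊥ := by
  set P2 := J0 * J0
  set P3 := J0 * P2
  set P4 := J0 * P3 with hP4
  refine eq_bot_of_le_mul hN (show P3 ≤ P4 from ?_)
  set c := x * y - y * x with hc
  have hc2 : c ∈ P2 := Submodule.sub_mem _ (Submodule.mul_mem_mul hx hy) (Submodule.mul_mem_mul hy hx)
  by_cases hc3 : c ∈ P3
  · have h23 : P2 ≤ J0 * P2 := h2.trans (sup_le (Submodule.span_le.2 (by simpa using hc3)) le_rfl)
    have h0 : P2 = ⊥ := eq_bot_of_le_mul hN h23
    simp [P3, h0]
  have hβ : ∀ a ∈ J0, ∀ b ∈ J0, ∃ r : k, a * b - r • c ∈ P3 := by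
    intro a ha b hb
    obtain ⟨_, hr, s, hs, he⟩ := Submodule.mem_sup.1 (h2 (Submodule.mul_mem_mul ha hb))
    obtain ⟨r, rfl⟩ := Submodule.mem_span_singleton.1 hr
    exact ⟨r, by rw [← he, add_sub_cancel_left]; exact hs⟩
  obtain ⟨a, hxx⟩ := hβ x hx x hx
  obtain ⟨p, hxy⟩ := hβ x hx y hy
  obtain ⟨q, hyx⟩ := hβ y hy x hx
  obtain ⟨d, hyy⟩ := hβ y hy y hy
  have hpq : p - q = 1 := by
    by_contra hne
    have hmem : (1 - (p - q)) • c ∈ P3 := by
      have e : (1 - (p - q)) • c = (x * y - p • c) - (y * x - q • c) := by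
        rw [sub_smul, sub_smul, one_smul]
        nth_rewrite 1 [hc]
        abel
      rw [e]
      exact P3.sub_mem hxy hyx
    exact hc3 ((P3.smul_mem_iff (sub_ne_zero.2 (Ne.symm hne))).1 hmem)
  have hright : ∀ {s g : A}, s ∈ P3 → g ∈ J0 → s * g ∈ P4 := by
    intro s g hs hg
    have : P3 * J0 = P4 := by simp only [hP4, P3, P2, mul_assoc]
    exact this ▸ Submodule.mul_mem_mul hs hg
  let mk := P4.mkQ
  have hmk : ∀ {s : A}, s ∈ P4 → mk s = 0 := fun hs => (Submodule.Quotient.mk_eq_zero P4).2 hs
  have key : ∀ {u v g : A} {r t : k}, u ∈ J0 → g ∈ J0 → u * v - r • c ∈ P3 →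
      v * g - t • c ∈ P3 → r • mk (c * g) = t • mk (u * c) := by
    intro u v g r t hu hg h h'
    have e1 := hmk (hright h hg)
    have e2 := hmk (Submodule.mul_mem_mul hu h')
    rw [sub_mul, smul_mul_assoc, map_sub, map_smul, sub_eq_zero] at e1
    rw [mul_sub, mul_smul_comm, map_sub, map_smul, sub_eq_zero, ← mul_assoc] at e2
    rw [← e1, e2]
  obtain ⟨hlx, hly⟩ := eq_zero_of_relations hpq
    (key hx hx hxy hyx) (key hy hy hyx hxy) (key hx hy hxx hxy) (key hx hy hxy hyy)
    (key hy hx hyx hxx) (key hy hx hyy hyx) (key hx hx hxx hxx) (key hy hy hyy hyy)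
  show J0 * P2 ≤ P4
  rw [Submodule.mul_le]
  intro g hg s hs
  obtain ⟨_, hr, s3, hs3, rfl⟩ := Submodule.mem_sup.1 (h2 hs)
  obtain ⟨r, rfl⟩ := Submodule.mem_span_singleton.1 hr
  rw [mul_add, mul_smul_comm]
  refine P4.add_mem (P4.smul_mem _ ?_) (Submodule.mul_mem_mul hg hs3)
  obtain ⟨w, hw, t, ht, rfl⟩ := Submodule.mem_sup.1 (hgen hg)
  obtain ⟨r1, r2, rfl⟩ := Submodule.mem_span_pair.1 hw
  rw [add_mul, add_mul, smul_mul_assoc, smul_mul_assoc]
  refine P4.add_mem (P4.add_mem (P4.smul_mem _ ((Submodule.Quotient.mk_eq_zero P4).1 hlx))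
    (P4.smul_mem _ ((Submodule.Quotient.mk_eq_zero P4).1 hly))) ?_
  have : P2 * P2 = P4 := by simp only [hP4, P3, P2, mul_assoc]
  exact this ▸ Submodule.mul_mem_mul ht hc2

/-- The span of brackets within a subspace. -/
def brSpan (J0 : Submodule k A) : Submodule k A :=
  Submodule.span k {z | ∃ a ∈ J0, ∃ b ∈ J0, z = a * b - b * a}

/-- A nilpotent algebra with small quotient by brackets and no nonzero ideal inside the brackets
is commutative. -/
theorem brSpan_eq_bot [FiniteDimensional k A] {J0 : Submodule k A} {N : ℕ} (hN : J0 ^ N = ⊥)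
    (hmul : J0 * J0 ≤ J0) (hsmall : finrank k J0 ≤ finrank k (brSpan J0) + 3)
    (hideal : ∀ X : Submodule k A, X ≤ brSpan J0 → J0 * X ≤ X → X = ⊥) :
    brSpan J0 = ⊥ := by
  set K := brSpan J0 with hK
  set P2 := J0 * J0 with hP2
  have hKP2 : K ≤ P2 := Submodule.span_le.2 (by
    rintro _ ⟨a, ha, b, hb, rfl⟩
    exact Submodule.sub_mem _ (Submodule.mul_mem_mul ha hb) (Submodule.mul_mem_mul hb ha))
  have hzero : (∀ a ∈ J0, ∀ b ∈ J0, a * b - b * a = 0) → K = ⊥ := fun h =>
    le_bot_iff.1 (Submodule.span_le.2 (by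
      rintro _ ⟨a, ha, b, hb, rfl⟩
      exact (Submodule.mem_bot k).2 (h a ha b hb)))
  by_cases h2K : P2 ≤ K
  · exact le_bot_iff.1 (hKP2.trans (le_of_eq (hideal P2 h2K (mulLeMulLeft hmul))))
  have hlt : finrank k K < finrank k P2 :=
    Submodule.finrank_lt_finrank_of_lt (lt_of_le_of_ne hKP2 fun h => h2K h.ge)
  by_cases hone : ∃ x ∈ J0, J0 ≤ Submodule.span k {x} ⊔ P2
  · obtain ⟨x, hx, hgen⟩ := hone
    exact hzero (bracket_eq_bot_one hN hx hgen)
  push Not at hone
  obtain ⟨x, hx, hx2⟩ := SetLike.not_le_iff_exists.1 fun h : J0 ≤ P2 =>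
    hone 0 (zero_mem _) (h.trans le_sup_right)
  obtain ⟨y, hy, hyx⟩ := SetLike.not_le_iff_exists.1 (hone x hx)
  have hs1 : finrank k (Submodule.span k {x} ⊔ P2 : Submodule k A) = finrank k P2 + 1 := by
    rw [sup_comm, Submodule.finrank_sup_span_singleton hx2]
  have hs2 : finrank k (Submodule.span k {x, y} ⊔ P2 : Submodule k A) = finrank k P2 + 2 := by
    rw [Submodule.span_insert, sup_comm (Submodule.span k {x}), sup_assoc, sup_comm,
      Submodule.finrank_sup_span_singleton hyx, hs1]
  have hgen : J0 ≤ Submodule.span k {x, y} ⊔ P2 := by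
    refine (Submodule.eq_of_le_of_finrank_le (sup_le (Submodule.span_le.2 ?_) hmul) (by omega)).ge
    simp [Set.insert_subset_iff, hx, hy]
  have hbound : finrank k P2 = finrank k K + 1 := by
    have h := Submodule.finrank_mono (show (Submodule.span k {x, y} ⊔ P2) ≤ J0 from
      sup_le (Submodule.span_le.2 (by simp [Set.insert_subset_iff, hx, hy])) hmul)
    omega
  set c := x * y - y * x with hc
  set P3 := J0 * P2 with hP3
  have hP32 : P3 ≤ P2 := mulLeMulLeft hmul
  have hright : ∀ {s g : A}, s ∈ P2 → g ∈ J0 → s * g ∈ P3 := by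
    intro s g hs hg
    have : P2 * J0 = P3 := by simp only [hP3, P2, mul_assoc]
    exact this ▸ Submodule.mul_mem_mul hs hg
  have hKc : K ≤ Submodule.span k {c} ⊔ P3 := by
    refine Submodule.span_le.2 ?_
    rintro _ ⟨a, ha, b, hb, rfl⟩
    obtain ⟨w, hw, s, hs, rfl⟩ := Submodule.mem_sup.1 (hgen ha)
    obtain ⟨w', hw', t, ht, rfl⟩ := Submodule.mem_sup.1 (hgen hb)
    obtain ⟨r1, r2, rfl⟩ := Submodule.mem_span_pair.1 hw
    obtain ⟨s1, s2, rfl⟩ := Submodule.mem_span_pair.1 hw'
    have hwJ : r1 • x + r2 • y ∈ J0 := J0.add_mem (J0.smul_mem _ hx) (J0.smul_mem _ hy)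
    rw [show (r1 • x + r2 • y + s) * (s1 • x + s2 • y + t) -
        (s1 • x + s2 • y + t) * (r1 • x + r2 • y + s) =
        (r1 * s2 - r2 * s1) • c + ((r1 • x + r2 • y) * t - t * (r1 • x + r2 • y) +
          (s * (s1 • x + s2 • y + t) - (s1 • x + s2 • y + t) * s)) by
      simp only [c, add_mul, mul_add, smul_mul_assoc, mul_smul_comm, smul_sub, sub_smul, smul_add,
        smul_smul, mul_comm s1 r1, mul_comm s2 r2, mul_comm s1 r2, mul_comm s2 r1]
      abel]
    exact Submodule.add_mem_sup (Submodule.smul_mem _ _ (Submodule.mem_span_singleton_self c))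
      (P3.add_mem (P3.sub_mem (Submodule.mul_mem_mul hwJ ht) (hright ht hwJ))
        (P3.sub_mem (hright hs hb) (Submodule.mul_mem_mul hb hs)))
  have h3 : P3 = ⊥ := by
    by_cases h3K : P3 ≤ K
    · exact hideal P3 h3K (mulLeMulLeft hP32)
    · have hlt' : finrank k K < finrank k (K ⊔ P3 : Submodule k A) :=
        Submodule.finrank_lt_finrank_of_lt (lt_of_le_of_ne le_sup_left fun h =>
          h3K (le_sup_right.trans h.ge))
      have heq := Submodule.eq_of_le_of_finrank_le (sup_le hKP2 hP32) (by omega)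
      exact cube_eq_bot hN hx hy hgen (heq.symm.le.trans (sup_le hKc le_sup_right))
  refine hideal K le_rfl ?_
  calc J0 * K ≤ J0 * P2 := mulLeMulLeft hKP2
    _ = ⊥ := h3
    _ ≤ K := bot_le

/-- A symmetric algebra with one simple module and at most four dimensions modulo commutators
is a matrix algebra over a commutative algebra of at most that dimension. -/
theorem exists_matrix_form [IsAlgClosed k] [FiniteDimensional k A] [Nontrivial A] (τ : A →ₗ[k] k)
    (hsym : ∀ a b, τ (a * b) = τ (b * a)) (hnd : ∀ a, (∀ b, τ (a * b) = 0) → a = 0)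
    (hk : finrank k (A ⧸ comm k A) ≤ 4)
    (hs : ∀ (d : ℕ) (dd : Fin d → ℕ), (∀ i, NeZero (dd i)) →
      ∀ F : A →ₐ[k] ((i : Fin d) → Matrix (Fin (dd i)) (Fin (dd i)) k),
        Function.Surjective F → d ≤ 1) :
    ∃ (n c : ℕ) (e : A), e * e = e ∧ finrank k A = n ^ 2 * c ∧ c ≤ finrank k (A ⧸ comm k A) ∧
      finrank k (LinearMap.range (LinearMap.mulRight k e)) = n * c := by
  classical
  have hArt : IsArtinianRing A := IsArtinianRing.of_finite k A
  set J := Ring.jacobson A
  obtain ⟨d, dd, hdd, ⟨φ⟩⟩ :=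
    IsSemisimpleRing.exists_algEquiv_pi_matrix_of_isAlgClosed k (A ⧸ J)
  let F := φ.toAlgHom.comp (Ideal.Quotient.mkₐ k J)
  have hF : Function.Surjective F := φ.surjective.comp (Ideal.Quotient.mkₐ_surjective k J)
  have hFker : ∀ a, F a = 0 ↔ a ∈ J := fun a => by
    simp [F, Ideal.Quotient.eq_zero_iff_mem]
  obtain ⟨N, hN⟩ : IsNilpotent J := IsSemiprimaryRing.isNilpotent
  have hd1 : d = 1 := by
    refine le_antisymm (hs d dd hdd F hF) ?_
    rcases Nat.eq_zero_or_pos d with hd0 | hd0
    · subst hd0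
      exfalso
      have : F 1 = F 0 := Subsingleton.elim _ _
      have h1J : (1 : A) ∈ J := (hFker 1).1 (by rw [this, map_zero])
      have := Ideal.pow_mem_pow h1J N
      rw [one_pow, hN] at this
      exact one_ne_zero (α := A) (by simp at this)
    · exact hd0
  subst hd1
  obtain ⟨n, hn⟩ := Nat.exists_eq_succ_of_ne_zero (hdd 0).out
  let π : A →ₐ[k] Matrix (Fin (n + 1)) (Fin (n + 1)) k :=
    (Matrix.reindexAlgEquiv k k (finCongr hn)).toAlgHom.comp ((Pi.evalAlgHom k _ 0).comp F)
  have hπ : Function.Surjective π := by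
    intro Y
    obtain ⟨a, ha⟩ := hF fun i => (Fin.fin_one_eq_zero i).symm ▸
      (Matrix.reindexAlgEquiv k k (finCongr hn)).symm Y
    exact ⟨a, by simp [π, ha, Function.comp_def]; exact Matrix.submatrix_id_id _⟩
  have hπker : ∀ a, π a = 0 ↔ a ∈ J := fun a => by
    rw [← hFker]
    constructor
    · intro h
      funext i
      rw [Fin.fin_one_eq_zero i]
      exact (Matrix.reindexAlgEquiv k k (finCongr hn)).injective (by simpa [π] using h)
    · intro h
      simp [π, h]
  obtain ⟨u, v, e, he, heπ, huv, hvu, hu0, hv0, heu, hve, hue, hev⟩ :=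
    exists_lift_matrix_units π hπ fun a ha => ⟨N, by
      have := Ideal.pow_mem_pow ((hπker a).1 ha) N
      rwa [hN] at this⟩
  have h00 : e 0 * e 0 = e 0 := (he.idem 0).eq
  let cm : A →ₗ[k] A := (LinearMap.mulLeft k (e 0)).comp (LinearMap.mulRight k (e 0))
  have hcm : ∀ a, cm a = e 0 * a * e 0 := fun a => by simp [cm, mul_assoc]
  set C := LinearMap.range cm
  have hC : ∀ a, a ∈ C ↔ e 0 * a * e 0 = a := fun a => by
    constructor
    · rintro ⟨b, rfl⟩
      rw [hcm]
      simp only [mul_assoc, h00]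
      simp only [← mul_assoc, h00]
    · exact fun h => ⟨a, by rw [hcm, h]⟩
  have hCe : e 0 ∈ C := (hC _).2 (by rw [h00, h00])
  have h0a : ∀ x ∈ C, e 0 * x = x := fun x hx => by
    conv_lhs => rw [← (hC x).1 hx, ← mul_assoc, ← mul_assoc, h00, (hC x).1 hx]
  have h0b : ∀ x ∈ C, x * e 0 = x := fun x hx => by
    conv_lhs => rw [← (hC x).1 hx, mul_assoc, h00, (hC x).1 hx]
  have hcent : ∀ i b j, v i * b * u j ∈ C := fun i b j => (hC _).2 (by
    simp only [mul_assoc, hue]
    simp only [← mul_assoc, hev])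
  have hCmul : ∀ a ∈ C, ∀ b ∈ C, a * b ∈ C := fun a ha b hb => (hC _).2 (by
    rw [← mul_assoc, h0a a ha, mul_assoc, h0b b hb])
  have hvu' : ∀ a b, v a * u b = if a = b then e 0 else 0 := fun a b => by
    by_cases h : a = b
    · subst h; rw [if_pos rfl, hvu]
    · rw [if_neg h, ← hve a, ← heu b, mul_assoc, ← mul_assoc (e a), he.ortho h, zero_mul,
        mul_zero]
  have hdim : finrank k A = (n + 1) * (n + 1) * finrank k C := by
    let Φ : A ≃ₗ[k] (Fin (n + 1) → Fin (n + 1) → C) :=
      { toFun := fun a i j => ⟨v i * a * u j, hcent i a j⟩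
        map_add' := fun a b => by ext i j; simp [mul_add, add_mul]
        map_smul' := fun r a => by ext i j; simp
        invFun := fun f => ∑ i, ∑ j, u i * (f i j : A) * v j
        left_inv := fun a => by
          calc ∑ i, ∑ j, u i * (v i * a * u j) * v j = ∑ i, ∑ j, e i * a * e j := by
                simp only [← mul_assoc, huv]
                simp only [mul_assoc, huv]
            _ = a := by
                simp [← Finset.mul_sum, ← Finset.sum_mul, he.complete]
        right_inv := fun f => by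
          funext i j
          apply Subtype.ext
          show v i * (∑ a, ∑ b, u a * (f a b : A) * v b) * u j = (f i j : A)
          rw [Finset.mul_sum, Finset.sum_mul, Finset.sum_eq_single i, Finset.mul_sum,
            Finset.sum_mul, Finset.sum_eq_single j]
          · rw [← mul_assoc, ← mul_assoc, mul_assoc _ (v j), hvu' i i, hvu' j j, if_pos rfl,
              if_pos rfl, (hC _).1 (f i j).2]
          · intro b _ hb
            rw [← mul_assoc, ← mul_assoc, mul_assoc _ (v b), hvu' b j, if_neg hb, mul_zero]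
          · simp
          · intro a _ ha
            simp [Finset.mul_sum, ← mul_assoc, hvu' i a, if_neg (Ne.symm ha)]
          · simp }
    rw [Φ.finrank_eq]
    simp [mul_assoc, Module.finrank_pi_fintype]
  have hcol : finrank k (LinearMap.range (LinearMap.mulRight k (e 0))) =
      (n + 1) * finrank k C := by
    have hmem : ∀ f : Fin (n + 1) → C, (∑ i, u i * (f i : A)) ∈
        LinearMap.range (LinearMap.mulRight k (e 0)) := fun f =>
      LinearMap.mem_range.2 ⟨∑ i, u i * (f i : A), by
        rw [LinearMap.mulRight_apply, Finset.sum_mul]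
        exact Finset.sum_congr rfl fun i _ => by rw [mul_assoc, h0b _ (f i).2]⟩
    let Ψ : (Fin (n + 1) → C) →ₗ[k] LinearMap.range (LinearMap.mulRight k (e 0)) :=
      { toFun := fun f => ⟨∑ i, u i * (f i : A), hmem f⟩
        map_add' := fun f g => by ext; simp [mul_add, Finset.sum_add_distrib]
        map_smul' := fun r f => by ext; simp [Finset.smul_sum] }
    have hinj : Function.Injective Ψ := by
      intro f g h
      funext j
      apply Subtype.ext
      have hrec : ∀ f : Fin (n + 1) → C, v j * (∑ i, u i * (f i : A)) = (f j : A) := fun f => by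
        rw [Finset.mul_sum, Finset.sum_eq_single j]
        · rw [← mul_assoc, hvu, h0a _ (f j).2]
        · intro b _ hb
          rw [← mul_assoc, hvu', if_neg (Ne.symm hb), zero_mul]
        · simp
      have h' := congrArg (fun z => v j * (z : A)) (congrArg Subtype.val h)
      simpa [Ψ, hrec] using h'
    have hsurj : Function.Surjective Ψ := by
      rintro ⟨a, ha⟩
      obtain ⟨b, rfl⟩ := LinearMap.mem_range.1 ha
      refine ⟨fun i => ⟨v i * (b * e 0), (hC _).2 ?_⟩, Subtype.ext ?_⟩
      · simp only [mul_assoc, h00]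
        simp only [← mul_assoc, hev]
      · show (∑ i, u i * (v i * (b * e 0))) = b * e 0
        simp only [← mul_assoc, huv, ← Finset.sum_mul, he.complete, one_mul]
    rw [← (LinearEquiv.ofBijective Ψ ⟨hinj, hsurj⟩).finrank_eq]
    simp [Module.finrank_pi_fintype]
  let T : A →ₗ[k] A := ∑ i, (LinearMap.mulLeft k (v i)).comp (LinearMap.mulRight k (u i))
  have hT : ∀ a, T a = ∑ i, v i * a * u i := fun a => by simp [T, mul_assoc]
  have hTC : ∀ a ∈ C, T a = a := fun a ha => by
    rw [hT, Finset.sum_eq_single 0]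
    · rw [hu0, hv0, (hC a).1 ha]
    · intro i _ hi
      rw [← (hC a).1 ha, ← hve i]
      simp only [← mul_assoc]
      rw [mul_assoc (v i) (e i), he.ortho hi]
      simp
    · simp
  set J0 : Submodule k A := C ⊓ LinearMap.ker π.toLinearMap
  have hdec : ∀ a ∈ C, ∃ r : k, a - r • e 0 ∈ J0 := by
    intro a ha
    refine ⟨π a 0 0, C.sub_mem ha (C.smul_mem _ hCe), ?_⟩
    show π (a - π a 0 0 • e 0) = 0
    rw [map_sub, map_smul, ← (hC a).1 ha, map_mul, map_mul, heπ]
    ext i j
    simp only [Matrix.sub_apply, Matrix.smul_apply, Matrix.zero_apply,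
      Matrix.single_mul_mul_single, one_mul, mul_one, Matrix.single_apply, smul_eq_mul]
    split <;> simp
  have hJmul : J0 * J0 ≤ J0 := Submodule.mul_le.2 fun a ha b hb =>
    ⟨hCmul a ha.1 b hb.1, by
      show π (a * b) = 0
      rw [map_mul, show π a = 0 from ha.2, zero_mul]⟩
  have hpow : ∀ m : ℕ, ∀ a ∈ J0 ^ (m + 1), a ∈ J ^ (m + 1) := by
    intro m
    induction m with
    | zero =>
      intro a ha
      rw [pow_one] at ha
      rw [Submodule.pow_one]
      exact (hπker a).1 ha.2
    | succ m ih =>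
      intro a ha
      rw [pow_succ] at ha
      induction ha using Submodule.mul_induction_on' with
      | mem_mul_mem p hp q hq =>
        rw [Submodule.pow_succ]
        exact Ideal.mul_mem_mul (ih p hp) ((hπker q).1 hq.2)
      | add p _ q _ hp hq => exact add_mem hp hq
  have hN0 : J0 ^ (N + 1) = ⊥ := le_bot_iff.1 fun a ha => by
    have h := hpow N a ha
    rw [Submodule.pow_succ, hN, zero_mul] at h
    simpa using h
  have hbr : ∀ a ∈ C, ∀ b ∈ C, a * b - b * a ∈ brSpan J0 := by
    intro a ha b hb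
    obtain ⟨r, hr⟩ := hdec a ha
    obtain ⟨s, hs⟩ := hdec b hb
    refine Submodule.subset_span ⟨_, hr, _, hs, ?_⟩
    simp only [sub_mul, mul_sub, smul_mul_assoc, mul_smul_comm, h0a a ha, h0a b hb, h0b a ha,
      h0b b hb, h00, smul_sub, smul_smul, mul_comm s r]
    abel
  have hcommT : comm k A ≤ (brSpan J0).comap T := by
    rw [comm, Submodule.span_le]
    rintro _ ⟨⟨a, b⟩, rfl⟩
    show T (a * b - b * a) ∈ brSpan J0
    have ex : ∀ a b, T (a * b) = ∑ i, ∑ j, (v i * a * u j) * (v j * b * u i) := fun a b => by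
      rw [hT]
      refine Finset.sum_congr rfl fun i _ => ?_
      calc v i * (a * b) * u i = v i * a * (∑ j, e j) * b * u i := by
            rw [he.complete, mul_one, ← mul_assoc]
        _ = _ := by
            simp only [Finset.mul_sum, Finset.sum_mul, ← huv, mul_assoc]
    rw [map_sub, ex, ex, Finset.sum_comm (f := fun i j => v i * b * u j * (v j * a * u i)),
      ← Finset.sum_sub_distrib]
    refine Submodule.sum_mem _ fun i _ => ?_
    rw [← Finset.sum_sub_distrib]
    exact Submodule.sum_mem _ fun j _ => hbr _ (hcent i a j) _ (hcent j b i)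
  have hKC : brSpan J0 ≤ C := Submodule.span_le.2 (by
    rintro _ ⟨a, ha, b, hb, rfl⟩
    exact C.sub_mem (hCmul a ha.1 b hb.1) (hCmul b hb.1 a ha.1))
  have hlin : finrank k C ≤ finrank k (brSpan J0) + finrank k (A ⧸ comm k A) := by
    have hTrange : LinearMap.range T ≤ C := by
      rintro _ ⟨a, rfl⟩
      rw [hT]
      exact C.sum_mem fun i _ => hcent i a i
    have hTsurj : C ≤ LinearMap.range T := fun a ha => ⟨a, hTC a ha⟩
    have h1 := T.finrank_range_add_finrank_ker
    have h2 : finrank k ((brSpan J0).comap T) =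
        finrank k (brSpan J0) + finrank k (LinearMap.ker T) := by
      have := (T.domRestrict ((brSpan J0).comap T)).finrank_range_add_finrank_ker
      rw [LinearMap.range_domRestrict,
        Submodule.map_comap_eq_of_le (hKC.trans hTsurj), LinearMap.ker_domRestrict,
        (Submodule.comapSubtypeEquivOfLe (LinearMap.ker_le_comap T)).finrank_eq] at this
      omega
    have h3 := Submodule.finrank_quotient_add_finrank (comm k A)
    have h5 := Submodule.finrank_mono hcommT
    have h6 : finrank k (LinearMap.range T) = finrank k C := by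
      rw [le_antisymm hTrange hTsurj]
    omega
  have he0 : e 0 ∉ J0 := fun h => by
    have h' : π (e 0) = 0 := h.2
    rw [heπ] at h'
    simpa using congrFun (congrFun h' 0) 0
  have hJC : finrank k C = finrank k J0 + 1 := by
    have h : C = J0 ⊔ Submodule.span k {e 0} := by
      refine le_antisymm (fun a ha => ?_) (sup_le inf_le_left (Submodule.span_le.2 (by simpa)))
      obtain ⟨r, hr⟩ := hdec a ha
      exact Submodule.mem_sup.2 ⟨_, hr, r • e 0, Submodule.mem_span_singleton.2 ⟨r, rfl⟩, by abel⟩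
    conv_lhs => rw [h]
    rw [Submodule.finrank_sup_span_singleton he0]
  have hideal : ∀ X : Submodule k A, X ≤ brSpan J0 → J0 * X ≤ X → X = ⊥ := by
    intro X hX hmul
    refine (Submodule.eq_bot_iff X).2 fun x hx => hnd x fun b => ?_
    have hxC : x ∈ C := hKC (hX hx)
    obtain ⟨r, hr⟩ := hdec (e 0 * b * e 0) ((hC _).2 (by
      simp only [mul_assoc, h00]; simp only [← mul_assoc, h00]))
    have hmem : e 0 * b * e 0 * x ∈ X := by
      have h := X.add_mem (hmul (Submodule.mul_mem_mul hr hx)) (X.smul_mem r hx)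
      rwa [sub_mul, smul_mul_assoc, h0a x hxC, sub_add_cancel] at h
    have hτ0 : ∀ z ∈ brSpan J0, τ z = 0 := fun z hz => by
      have hle : brSpan J0 ≤ LinearMap.ker τ := Submodule.span_le.2 (by
        rintro _ ⟨a, -, b, -, rfl⟩
        simp [hsym a b])
      exact hle hz
    calc τ (x * b) = τ (x * e 0 * b) := by rw [h0b x hxC]
      _ = τ (e 0 * (x * (e 0 * b))) := by
          rw [← mul_assoc, h0a x hxC, ← mul_assoc]
      _ = τ (x * (e 0 * b) * e 0) := hsym _ _
      _ = τ (x * (e 0 * b * e 0)) := by rw [mul_assoc x]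
      _ = τ (e 0 * b * e 0 * x) := hsym _ _
      _ = 0 := hτ0 _ (hX hmem)
  have hbot := brSpan_eq_bot hN0 hJmul (by omega) hideal
  rw [hbot, finrank_bot, zero_add] at hlin
  exact ⟨n + 1, finrank k C, e 0, h00, by rw [hdim, sq], hlin, hcol⟩

end Cfsg.Agent.H31.TwoChar
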